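import Mathlib
import Cfsg.Agent.H141.Rg.Lin

/-!
# S5714 [C6]: the roots of irreducible polynomials over a finite field

* `core1` : `c ^ (p ^ g) = c`, `g ∣ 2 j`, `c ^ (p ^ j + 1) = 1` give `c ^ 2 = 1` or `c ^ (n + 1) = 1` with `n ^ 2 = p ^ g`;
* `root_pow`, `mem_aeval`, `roots_conj` : the roots of an irreducible polynomial;
* `sd_root` : the roots of the self-dual polynomials; `b1_root`, `b1_sd_root`, `dual_root`.
-/

set_option autoImplicit false

namespace Cfsg.Agent.H244.Rg

open Polynomial Module Cfsg.Agent.H141.Rg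

section pows

variable {L : Type*} [Field L] {x : L} {Q a b : ℕ}

theorem pow_gcd (ha : x ^ Q ^ a = x) (hb : x ^ Q ^ b = x) : x ^ Q ^ Nat.gcd a b = x := by
  have h : ∀ n : ℕ, Function.IsPeriodicPt (fun y : L => y ^ Q) n x ↔ x ^ Q ^ n = x := by
    intro n
    show (fun y : L => y ^ Q)^[n] x = x ↔ _
    rw [pow_iterate]
  exact (h _).1 (((h a).2 ha).gcd ((h b).2 hb))

theorem pow_mul_self (ha : x ^ Q ^ a = x) (k : ℕ) : x ^ Q ^ (a * k) = x := by
  induction k with
  | zero => simp
  | succ n ih => rw [Nat.mul_succ, pow_add, pow_mul, ih, ha]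

/-- the two cases -/
theorem core1 {p g j : ℕ} (h1 : x ^ p ^ g = x) (h2 : g ∣ 2 * j) (h3 : x ^ (p ^ j + 1) = 1) :
    x ^ 2 = 1 ∨ ∃ n, n ^ 2 = p ^ g ∧ x ^ (n + 1) = 1 := by
  obtain ⟨u, hu⟩ := h2
  rcases Nat.even_or_odd' u with ⟨v, rfl | rfl⟩
  · left
    have h4 : j = g * v := by
      have : 2 * j = 2 * (g * v) := by rw [hu]; ring
      omega
    rw [pow_succ, h4, pow_mul_self h1] at h3
    rw [pow_two]; exact h3
  · right
    have h5 : 2 ∣ g := by
      have h6 : 2 ∣ g * (2 * v + 1) := ⟨j, hu.symm⟩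
      have h7 : Nat.Coprime 2 (2 * v + 1) := by simp
      exact h7.dvd_of_dvd_mul_right h6
    obtain ⟨w, rfl⟩ := h5
    have h4 : j = 2 * w * v + w := by
      have : 2 * j = 2 * (2 * w * v + w) := by rw [hu]; ring
      omega
    refine ⟨p ^ w, by rw [← pow_mul, mul_comm], ?_⟩
    rw [pow_succ, h4, pow_add, pow_mul, pow_mul_self h1, ← pow_succ] at h3
    exact h3

end pows

section count

variable {L : Type*} [Field L]

theorem ncard_of_poly {P : L[X]} (hP : P ≠ 0) {S : Set L} (h : ∀ x ∈ S, P.eval x = 0) :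
    S.Finite ∧ S.ncard ≤ P.natDegree := by
  classical
  have h1 : S ⊆ (P.roots.toFinset : Set L) := by
    intro x hx
    rw [Finset.mem_coe, Multiset.mem_toFinset, mem_roots hP]
    exact h x hx
  refine ⟨(Finset.finite_toSet _).subset h1, (Set.ncard_le_ncard h1 (Finset.finite_toSet _)).trans ?_⟩
  rw [Set.ncard_coe_finset]
  exact (Multiset.toFinset_card_le _).trans (card_roots' P)

theorem ncard_self {n : ℕ} (hn : 1 < n) : {x : L | x ^ n = x}.Finite ∧ {x : L | x ^ n = x}.ncard ≤ n := by
  have h := ncard_of_poly (FiniteField.X_pow_card_sub_X_ne_zero L hn) (S := {x : L | x ^ n = x}) (by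
    intro x hx
    rw [Set.mem_ofPred_eq] at hx
    simp [hx])
  rw [FiniteField.X_pow_card_sub_X_natDegree_eq L hn] at h
  exact h

theorem ncard_nth {n : ℕ} (hn : 0 < n) (a : L) : {x : L | x ^ n = a}.Finite ∧ {x : L | x ^ n = a}.ncard ≤ n := by
  have h := ncard_of_poly (P := X ^ n - C a) (X_pow_sub_C_ne_zero hn a) (S := {x : L | x ^ n = a}) (by
    intro x hx
    rw [Set.mem_ofPred_eq] at hx
    simp [hx])
  rw [natDegree_X_pow_sub_C] at h
  exact h

end count

section roots

variable {K : Type*} [Field K] [Finite K]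

local notation "Kb" => AlgebraicClosure K

theorem one_lt_card : 1 < Nat.card K := Finite.one_lt_card

/-- the Frobenius -/
theorem aeval_pow (x : Kb) (P : K[X]) (i : ℕ) : aeval (x ^ Nat.card K ^ i) P = (aeval x P) ^ Nat.card K ^ i := by
  have := Fintype.ofFinite K
  have h1 : ∀ x : Kb, aeval (x ^ Nat.card K) P = (aeval x P) ^ Nat.card K := by
    intro x
    have h2 := Polynomial.aeval_algHom_apply (FiniteField.frobeniusAlgHom K Kb) x P
    rw [FiniteField.coe_frobeniusAlgHom, ← Nat.card_eq_fintype_card] at h2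
    exact h2
  induction i with
  | zero => simp
  | succ n ih => rw [pow_succ, pow_mul, h1, ih, ← pow_mul]

theorem minpoly_eq {f : K[X]} (hf : Irr' f) {a : Kb} (ha : aeval a f = 0) : minpoly K a = f :=
  (minpoly.eq_of_irreducible_of_monic hf.2.1 ha hf.1).symm

theorem coeff_zero_ne {f : K[X]} (hf : Irr' f) : f.coeff 0 ≠ 0 := by
  intro h
  have h1 : X ∣ f := X_dvd_iff.2 h
  have h2 : Associated X f := (Polynomial.irreducible_X).associated_of_dvd hf.2.1 h1
  exact hf.2.2 (eq_of_monic_of_associated monic_X hf.1 h2).symm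

theorem root_ne_zero {f : K[X]} (hf : Irr' f) {a : Kb} (ha : aeval a f = 0) : a ≠ 0 := by
  rintro rfl
  rw [aeval_def, eval₂_at_zero, map_eq_zero_iff _ (algebraMap K Kb).injective] at ha
  exact coeff_zero_ne hf ha

theorem natDegree_pos {f : K[X]} (hf : Irr' f) : 0 < f.natDegree := hf.2.1.natDegree_pos

/-- a bijection with the polynomials of small degree -/
theorem card_adjoin {f : K[X]} (hf : Irr' f) {a : Kb} (ha : aeval a f = 0) :
    (Set.range fun P : K[X] => (aeval a P : Kb)).ncard = Nat.card K ^ f.natDegree ∧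
      (Set.range fun P : K[X] => (aeval a P : Kb)).Finite := by
  have hint : IsIntegral K a := Algebra.IsIntegral.isIntegral a
  have h1 : (Set.range fun P : K[X] => (aeval a P : Kb)) = (IntermediateField.adjoin K {a} : Set Kb) := by
    have h2 : (IntermediateField.adjoin K {a}).toSubalgebra = Algebra.adjoin K {a} :=
      IntermediateField.adjoin_simple_toSubalgebra_of_isAlgebraic hint.isAlgebraic
    rw [Algebra.adjoin_singleton_eq_range_aeval] at h2
    exact (congrArg (fun S : Subalgebra K Kb => (S : Set Kb)) h2).symm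
  have hfd : FiniteDimensional K (IntermediateField.adjoin K {a}) := IntermediateField.adjoin.finiteDimensional hint
  have hfin : Finite (IntermediateField.adjoin K {a}) := Module.finite_of_finite K
  rw [h1]
  refine ⟨?_, Set.toFinite _⟩
  have h4 : Nat.card (IntermediateField.adjoin K {a}) = Nat.card K ^ f.natDegree := by
    rw [Module.natCard_eq_pow_finrank (K := K), IntermediateField.adjoin.finrank hint, minpoly_eq hf ha]
  rw [← h4]
  rfl

theorem root_pow {f : K[X]} (hf : Irr' f) {a : Kb} (ha : aeval a f = 0) : a ^ Nat.card K ^ f.natDegree = a := by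
  have hint : IsIntegral K a := Algebra.IsIntegral.isIntegral a
  have hfd : FiniteDimensional K (IntermediateField.adjoin K {a}) := IntermediateField.adjoin.finiteDimensional hint
  have hfin : Finite (IntermediateField.adjoin K {a}) := Module.finite_of_finite K
  have := Fintype.ofFinite (IntermediateField.adjoin K {a})
  have h4 : Nat.card (IntermediateField.adjoin K {a}) = Nat.card K ^ f.natDegree := by
    rw [Module.natCard_eq_pow_finrank (K := K), IntermediateField.adjoin.finrank hint, minpoly_eq hf ha]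
  have h5 := FiniteField.pow_card (⟨a, IntermediateField.mem_adjoin_simple_self K a⟩ : IntermediateField.adjoin K {a})
  rw [← Nat.card_eq_fintype_card, h4] at h5
  exact congrArg Subtype.val h5

theorem one_lt_pow {d : ℕ} (hd : 0 < d) : 1 < Nat.card K ^ d := Nat.one_lt_pow hd.ne' one_lt_card

/-- the elements of the field generated by `a` -/
theorem mem_aeval {f : K[X]} (hf : Irr' f) {a : Kb} (ha : aeval a f = 0) {x : Kb}
    (hx : x ^ Nat.card K ^ f.natDegree = x) : ∃ P : K[X], x = aeval a P := by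
  have h1 := ncard_self (L := Kb) (one_lt_pow (K := K) (natDegree_pos hf))
  have h2 := card_adjoin hf ha
  have h3 : (Set.range fun P : K[X] => (aeval a P : Kb)) ⊆ {x : Kb | x ^ Nat.card K ^ f.natDegree = x} := by
    rintro _ ⟨P, rfl⟩
    rw [Set.mem_ofPred_eq, ← aeval_pow, root_pow hf ha]
  have h4 := Set.eq_of_subset_of_ncard_le h3 (by rw [h2.1]; exact h1.2) h1.1
  have h5 : x ∈ {x : Kb | x ^ Nat.card K ^ f.natDegree = x} := hx
  rw [← h4] at h5
  obtain ⟨P, hP⟩ := h5
  exact ⟨P, hP.symm⟩

/-- `a` is in no smaller field -/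
theorem le_of_pow {f : K[X]} (hf : Irr' f) {a : Kb} (ha : aeval a f = 0) {c : ℕ} (hc : 0 < c)
    (h : a ^ Nat.card K ^ c = a) : f.natDegree ≤ c := by
  have h1 := ncard_self (L := Kb) (one_lt_pow (K := K) hc)
  have h2 := card_adjoin hf ha
  have h3 : (Set.range fun P : K[X] => (aeval a P : Kb)) ⊆ {x : Kb | x ^ Nat.card K ^ c = x} := by
    rintro _ ⟨P, rfl⟩
    rw [Set.mem_ofPred_eq, ← aeval_pow, h]
  have h4 := (Set.ncard_le_ncard h3 h1.1).trans h1.2
  rw [h2.1] at h4
  exact (Nat.pow_le_pow_iff_right one_lt_card).1 h4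

theorem pow_inj {n : ℕ} {x y : Kb} (h : x ^ Nat.card K ^ n = y ^ Nat.card K ^ n) : x = y := by
  have := Fintype.ofFinite K
  have h1 : ∀ x y : Kb, x ^ Nat.card K = y ^ Nat.card K → x = y := by
    intro x y hxy
    apply (FiniteField.frobeniusAlgHom K Kb).toRingHom.injective
    have h2 : ∀ z : Kb, (FiniteField.frobeniusAlgHom K Kb).toRingHom z = z ^ Nat.card K := by
      intro z
      rw [Nat.card_eq_fintype_card]
      rfl
    rw [h2, h2]
    exact hxy
  induction n with
  | zero => simpa using h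
  | succ n ih =>
    apply ih
    apply h1
    rw [← pow_mul, ← pow_mul, ← pow_succ]
    exact h

theorem orbit_eq {f : K[X]} (hf : Irr' f) {a : Kb} (ha : aeval a f = 0) :
    (∀ x : Kb, x ∈ f.aroots Kb ↔ aeval x f = 0) ∧
    (∀ b : Kb, aeval b f = 0 → ∃ i < f.natDegree, b = a ^ Nat.card K ^ i) ∧
    {x : Kb | aeval x f = 0}.Finite ∧ {x : Kb | aeval x f = 0}.ncard = f.natDegree := by
  classical
  have h0 : f.map (algebraMap K Kb) ≠ 0 := (Polynomial.map_ne_zero_iff (algebraMap K Kb).injective).2 hf.1.ne_zero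
  have hmem' : ∀ x : Kb, x ∈ f.aroots Kb ↔ aeval x f = 0 := by
    intro x
    rw [mem_aroots']
    exact ⟨fun h => h.2, fun h => ⟨h0, h⟩⟩
  have hmem : ∀ x : Kb, x ∈ (f.aroots Kb).toFinset ↔ aeval x f = 0 := by
    intro x
    rw [Multiset.mem_toFinset, hmem']
  have hinj : Set.InjOn (fun i => a ^ Nat.card K ^ i) (Finset.range f.natDegree : Set ℕ) := by
    have key : ∀ i j, i < j → j < f.natDegree → a ^ Nat.card K ^ i ≠ a ^ Nat.card K ^ j := by
      intro i j hij hj h
      have h1 : a ^ Nat.card K ^ (j - i) = a := by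
        apply pow_inj (n := i)
        rw [← pow_mul, ← pow_add, Nat.sub_add_cancel hij.le, h]
      have := le_of_pow hf ha (by omega) h1
      omega
    intro i hi j hj h
    rw [Finset.mem_coe, Finset.mem_range] at hi hj
    rcases lt_trichotomy i j with h1 | h1 | h1
    · exact absurd h (key i j h1 hj)
    · exact h1
    · exact absurd h.symm (key j i h1 hi)
  have h1 : (Finset.range f.natDegree).image (fun i => a ^ Nat.card K ^ i) = (f.aroots Kb).toFinset := by
    apply Finset.eq_of_subset_of_card_le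
    · intro x hx
      rw [Finset.mem_image] at hx
      obtain ⟨i, -, rfl⟩ := hx
      rw [hmem, aeval_pow, ha, zero_pow (pow_ne_zero _ (by have := one_lt_card (K := K); omega))]
    · rw [Finset.card_image_of_injOn hinj, Finset.card_range]
      exact (Multiset.toFinset_card_le _).trans ((card_roots' _).trans natDegree_map_le)
  have hset : {x : Kb | aeval x f = 0} = ((f.aroots Kb).toFinset : Set Kb) := by
    ext x
    rw [Finset.mem_coe, hmem, Set.mem_ofPred_eq]
  refine ⟨hmem', fun b hb => ?_, ?_, ?_⟩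
  · have h2 := (hmem b).2 hb
    rw [← h1, Finset.mem_image] at h2
    obtain ⟨i, hi, h3⟩ := h2
    exact ⟨i, Finset.mem_range.1 hi, h3.symm⟩
  · rw [hset]; exact Finset.finite_toSet _
  · rw [hset, Set.ncard_coe_finset, ← h1, Finset.card_image_of_injOn hinj, Finset.card_range]

theorem roots_conj {f : K[X]} (hf : Irr' f) {a b : Kb} (ha : aeval a f = 0) (hb : aeval b f = 0) :
    ∃ i < f.natDegree, b = a ^ Nat.card K ^ i := (orbit_eq hf ha).2.1 b hb

theorem exists_root {f : K[X]} (hf : Irr' f) : ∃ a : Kb, aeval a f = 0 := by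
  have h := IsAlgClosed.exists_aeval_eq_zero Kb f (by
    rw [degree_eq_natDegree hf.1.ne_zero]
    exact_mod_cast (natDegree_pos hf).ne')
  exact h

end roots

end Cfsg.Agent.H244.Rg
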