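import Mathlib
import Cfsg.Agent.H244.Rg.Orb

/-!
# S5714 [C6]: self-dual polynomials and coincidences between powers of roots
-/

set_option autoImplicit false

namespace Cfsg.Agent.H244.Rg

open Polynomial Module Cfsg.Agent.H141.Rg

section sigma

variable {K : Type*} [Field K] [Finite K] {p : ℕ} [hp : Fact p.Prime] [CharP K p] {σ : K →+* K} {s : ℕ}

local notation "Kb" => AlgebraicClosure K

omit hp [CharP K p] in
theorem exists_prime (K : Type*) [Field K] [Finite K] :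
    ∃ p e : ℕ, p.Prime ∧ CharP K p ∧ 0 < e ∧ Nat.card K = p ^ e := by
  have := Fintype.ofFinite K
  obtain ⟨p, hc⟩ := CharP.exists K
  obtain ⟨n, hp, hn⟩ := FiniteField.card K p
  exact ⟨p, n, hp, hc, n.pos, by rw [Nat.card_eq_fintype_card]; exact hn⟩

theorem sigma_pow (σ : K →+* K) : ∃ s, ∀ x, σ x = x ^ p ^ s := by
  let _ : Algebra (ZMod p) K := ZMod.algebra K p
  let τ : K →ₐ[ZMod p] K :=
    { σ with
      commutes' := fun r => by
        show σ (algebraMap (ZMod p) K r) = algebraMap (ZMod p) K r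
        rw [← RingHom.comp_apply]
        congr 1
        exact Subsingleton.elim _ _ }
  obtain ⟨n, hn⟩ := (FiniteField.bijective_frobeniusAlgHom_pow (ZMod p) K).2 τ
  refine ⟨n.1, fun x => ?_⟩
  have h1 := DFunLike.congr_fun hn x
  simp only [AlgHom.coe_pow, FiniteField.coe_frobeniusAlgHom, pow_iterate, ZMod.card] at h1
  exact h1.symm

instance charP_bar : CharP Kb p := charP_of_injective_algebraMap (algebraMap K Kb).injective p

theorem frob_aeval (n : ℕ) (x : Kb) (P : K[X]) (τ : K →+* K) (hτ : ∀ y, τ y = y ^ p ^ n) :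
    aeval (x ^ p ^ n) (P.map τ) = (aeval x P) ^ p ^ n := by
  have h1 := Polynomial.hom_eval₂ P (algebraMap K Kb) (iterateFrobenius Kb p n) x
  rw [aeval_def, aeval_def, eval₂_map, ← iterateFrobenius_def, ← iterateFrobenius_def, h1]
  congr 1
  ext y
  rw [RingHom.comp_apply, RingHom.comp_apply, iterateFrobenius_def, hτ, map_pow]

theorem pow_inj' {n : ℕ} {x y : Kb} (h : x ^ p ^ n = y ^ p ^ n) : x = y := by
  rw [← iterateFrobenius_def, ← iterateFrobenius_def] at h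
  exact (iterateFrobenius Kb p n).injective h

omit [Finite K] hp [CharP K p] in
theorem eval_str {h : K[X]} {a : Kb} (ha : a ≠ 0) (h1 : aeval a (str σ h) = 0) : aeval a⁻¹ (h.map σ) = 0 := by
  have hi : Invertible a⁻¹ := invertibleOfNonzero (inv_ne_zero ha)
  have h2 := eval₂_reverse_mul_pow (algebraMap K Kb) a⁻¹ (h.map σ)
  rw [invOf_eq_inv, inv_inv] at h2
  rw [aeval_def, ← h2]
  have h3 : eval₂ (algebraMap K Kb) a (h.map σ).reverse = 0 := h1
  rw [h3, zero_mul]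

theorem root_str (hs : ∀ y, σ y = y ^ p ^ s) {h : K[X]} {a : Kb} (ha : a ≠ 0) (h1 : aeval a (str σ h) = 0) :
    ∃ b : Kb, aeval b h = 0 ∧ a⁻¹ = b ^ p ^ s := by
  obtain ⟨b, hb⟩ := IsAlgClosed.exists_pow_nat_eq a⁻¹ (pow_pos hp.out.pos s)
  refine ⟨b, ?_, hb.symm⟩
  have h2 := eval_str ha h1
  rw [← hb, frob_aeval s b h σ hs] at h2
  exact pow_eq_zero_iff (pow_pos hp.out.pos s).ne' |>.1 h2

omit hp [Finite K] [CharP K p] in
theorem aeval_of_dvd {f g : K[X]} {a : Kb} (h : f ∣ g) (ha : aeval a f = 0) : aeval a g = 0 := by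
  obtain ⟨w, rfl⟩ := h
  rw [map_mul, ha, zero_mul]

/-- the roots of the self-dual polynomials -/
theorem sd_root (hσ : ∀ x, σ (σ x) = x) {f : K[X]} (hf : Irr' f) (hsd : f ∣ str σ f) {a : Kb} (ha : aeval a f = 0) :
    a ^ 2 = 1 ∨ ∃ n, n ^ 2 = Nat.card K ^ f.natDegree ∧ a ^ (n + 1) = 1 := by
  obtain ⟨p, e, hp', hch, he, hQ⟩ := exists_prime K
  have hp : Fact p.Prime := ⟨hp'⟩
  obtain ⟨s, hs⟩ := sigma_pow (p := p) σ
  have ha0 := root_ne_zero hf ha
  obtain ⟨b, hb, hab⟩ := root_str hs ha0 (aeval_of_dvd hsd ha)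
  obtain ⟨i, hi, rfl⟩ := roots_conj hf ha hb
  have hj : a⁻¹ = a ^ p ^ (e * i + s) := by
    rw [hab, hQ, ← pow_mul, ← pow_mul, ← pow_add]
  set j := e * i + s with hjdef
  have h3 : a ^ (p ^ j + 1) = 1 := by
    rw [pow_succ, ← hj, inv_mul_cancel₀ ha0]
  have ha2 : a ^ p ^ (2 * j) = a := by
    rw [two_mul, pow_add, pow_mul, ← hj, inv_pow, ← hj, inv_inv]
  -- the power map fixes `K`
  have hK : ∀ y : K, (RingHom.id K) y = y ^ p ^ (2 * j) := by
    intro y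
    have h4 : y ^ p ^ (2 * s) = y := by
      rw [two_mul, pow_add, pow_mul, ← hs, ← hs, hσ]
    have h5 : y ^ Nat.card K = y := by
      have := Fintype.ofFinite K
      rw [Nat.card_eq_fintype_card, FiniteField.pow_card]
    have h6 : ∀ n : ℕ, y ^ Nat.card K ^ n = y := by
      intro n
      induction n with
      | zero => simp
      | succ n ih => rw [pow_succ, pow_mul, ih, h5]
    have h7 : p ^ (2 * j) = Nat.card K ^ (2 * i) * p ^ (2 * s) := by
      rw [hQ, ← pow_mul, ← pow_add]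
      congr 1
      rw [hjdef]; ring
    rw [RingHom.id_apply, h7, pow_mul, h6, h4]
  set m := e * f.natDegree with hm
  have hQd : Nat.card K ^ f.natDegree = p ^ m := by rw [hQ, ← pow_mul]
  have hmpos : 0 < m := Nat.mul_pos he (natDegree_pos hf)
  have hfix : ∀ x : Kb, x ^ p ^ m = x → x ^ p ^ (2 * j) = x := by
    intro x hx
    obtain ⟨P, rfl⟩ := mem_aeval hf ha (by rw [hQd]; exact hx)
    have h4 := frob_aeval (2 * j) a P (RingHom.id K) hK
    rw [ha2, Polynomial.map_id] at h4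
    exact h4.symm
  -- `m ∣ 2 j`
  have hdvd : m ∣ 2 * j := by
    by_contra hcon
    have hr : 0 < 2 * j % m := Nat.pos_of_ne_zero fun h => hcon (Nat.dvd_of_mod_eq_zero h)
    have h4 : {x : Kb | x ^ p ^ m = x} ⊆ {x : Kb | x ^ p ^ (2 * j % m) = x} := by
      intro x hx
      rw [Set.mem_ofPred_eq] at hx ⊢
      have h5 := hfix x hx
      rw [← Nat.div_add_mod (2 * j) m, pow_add, pow_mul, pow_mul_self hx] at h5
      exact h5
    have h5 := ncard_self (L := Kb) (Nat.one_lt_pow hr.ne' hp.out.one_lt)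
    have h6 := (Set.ncard_le_ncard h4 h5.1).trans h5.2
    have h7 := card_adjoin hf ha
    have h8 : (Set.range fun P : K[X] => (aeval a P : Kb)) ⊆ {x : Kb | x ^ p ^ m = x} := by
      rintro _ ⟨P, rfl⟩
      rw [Set.mem_ofPred_eq, ← hQd, ← aeval_pow, root_pow hf ha]
    have h9 := (Set.ncard_le_ncard h8 (h5.1.subset h4)).trans h6
    rw [h7.1, hQd] at h9
    have h10 := (Nat.pow_le_pow_iff_right hp.out.one_lt).1 h9
    have h11 := Nat.mod_lt (2 * j) hmpos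
    omega
  have h12 := core1 (L := Kb) (by rw [← hQd]; exact root_pow hf ha) hdvd h3
  rw [hQd]
  exact h12

omit hp [CharP K p] in
theorem b1_root {f : K[X]} (hf : Irr' f) {a b : Kb} (ha : aeval a f = 0) (hb : aeval b f = 0) (hab : a ≠ b) {m : ℕ}
    (h : a ^ m = b ^ m) : ∃ g, 0 < g ∧ g ∣ f.natDegree ∧ g < f.natDegree ∧ (a ^ m) ^ Nat.card K ^ g = a ^ m := by
  obtain ⟨i, hi, rfl⟩ := roots_conj hf ha hb
  have hi0 : i ≠ 0 := by
    rintro rfl
    exact hab (by rw [pow_zero, pow_one])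
  have h1 : (a ^ m) ^ Nat.card K ^ i = a ^ m := by
    rw [← pow_mul, mul_comm, pow_mul]; exact h.symm
  have h2 : (a ^ m) ^ Nat.card K ^ f.natDegree = a ^ m := by
    rw [← pow_mul, mul_comm, pow_mul, root_pow hf ha]
  refine ⟨Nat.gcd i f.natDegree, Nat.gcd_pos_of_pos_left _ (Nat.pos_of_ne_zero hi0), Nat.gcd_dvd_right _ _, ?_, pow_gcd h1 h2⟩
  exact (Nat.le_of_dvd (Nat.pos_of_ne_zero hi0) (Nat.gcd_dvd_left _ _)).trans_lt hi

theorem b1_sd_root (hσ : ∀ x, σ (σ x) = x) {f : K[X]} (hf : Irr' f) (hsd : f ∣ str σ f) {a b : Kb}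
    (ha : aeval a f = 0) (hb : aeval b f = 0) (hab : a ≠ b) {m : ℕ} (h : a ^ m = b ^ m) :
    (a ^ m) ^ 2 = 1 ∨ ∃ g, 0 < g ∧ 3 * g ≤ f.natDegree ∧ (a ^ m) ^ Nat.card K ^ g = a ^ m := by
  obtain ⟨g, hg0, hgd, hlt, hc⟩ := b1_root hf ha hb hab h
  rcases sd_root hσ hf hsd ha with h2 | ⟨n, hn, h2⟩
  · left
    rw [← pow_mul, mul_comm, pow_mul, h2, one_pow]
  · obtain ⟨u, hu⟩ := hgd
    have hc1 : (a ^ m) ^ (n + 1) = 1 := by rw [← pow_mul, mul_comm, pow_mul, h2, one_pow]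
    rcases Nat.even_or_odd' u with ⟨v, hv | hv⟩
    · left
      have h3 : n = Nat.card K ^ (g * v) := by
        apply Nat.pow_left_injective (n := 2) (by norm_num)
        show n ^ 2 = _ ^ 2
        rw [hn, hu, hv, ← pow_mul]
        congr 1; ring
      rw [pow_succ, h3, pow_mul_self hc] at hc1
      rw [pow_two]; exact hc1
    · right
      refine ⟨g, hg0, ?_, hc⟩
      have hv0 : v ≠ 0 := by
        rintro rfl
        rw [hv] at hu
        omega
      rw [hu, hv]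
      nlinarith [Nat.pos_of_ne_zero hv0]

theorem dual_root (hs : ∀ y, σ y = y ^ p ^ s) {f h : K[X]} (hf : Irr' f) (hh : Irr' h) (hd : f ∣ str σ h) {a b : Kb}
    (ha : aeval a f = 0) (hb : aeval b h = 0) {m : ℕ} (hab : a ^ m = b ^ m) :
    ∃ i < h.natDegree, (b ^ m) ^ (p ^ s * Nat.card K ^ i + 1) = 1 := by
  have ha0 := root_ne_zero hf ha
  obtain ⟨b', hb', h1⟩ := root_str hs ha0 (aeval_of_dvd hd ha)
  obtain ⟨i, hi, rfl⟩ := roots_conj hh hb hb'
  refine ⟨i, hi, ?_⟩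
  have h2 : (b ^ m) ^ (p ^ s * Nat.card K ^ i) = (a ^ m)⁻¹ := by
    rw [← inv_pow, h1, ← pow_mul, ← pow_mul, ← pow_mul]
    congr 1; ring
  rw [pow_succ, h2, hab, inv_mul_cancel₀]
  exact pow_ne_zero _ (root_ne_zero hh hb)

theorem dual_unique (hs : ∀ y, σ y = y ^ p ^ s) {h h' : K[X]} (hh : Irr' h) (hh' : Irr' h') {a : Kb} (ha : a ≠ 0)
    (h1 : aeval a (str σ h) = 0) (h2 : aeval a (str σ h') = 0) : h = h' := by
  obtain ⟨b, hb, h3⟩ := root_str hs ha h1
  obtain ⟨b', hb', h4⟩ := root_str hs ha h2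
  have h5 : b = b' := pow_inj' (p := p) (n := s) (h3.symm.trans h4)
  rw [← minpoly_eq hh hb, ← minpoly_eq hh' hb', h5]

/-! ### counting -/

omit hp [CharP K p] in
theorem one_le_sqrt (d : ℕ) : 1 ≤ Real.sqrt ((Nat.card K : ℝ) ^ d) := by
  rw [Real.one_le_sqrt]
  apply one_le_pow₀
  exact_mod_cast (one_lt_card (K := K)).le

omit hp [CharP K p] [Finite K] in
theorem ncard_two {n : ℕ} {x : ℝ} (hx : 1 ≤ x) (hn : (n : ℝ) ≤ x) :
    ({c : Kb | c ^ 2 = 1} ∪ {c : Kb | c ^ (n + 1) = 1}).Finite ∧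
      (({c : Kb | c ^ 2 = 1} ∪ {c : Kb | c ^ (n + 1) = 1}).ncard : ℝ) ≤ 4 * x := by
  have h1 := ncard_nth (L := Kb) (n := 2) (by norm_num) 1
  have h2 := ncard_nth (L := Kb) (n := n + 1) (by omega) 1
  refine ⟨h1.1.union h2.1, ?_⟩
  have h3 : (({c : Kb | c ^ 2 = 1} ∪ {c : Kb | c ^ (n + 1) = 1}).ncard : ℝ) ≤ 2 + (n + 1) := by
    have h4 := (Set.ncard_union_le {c : Kb | c ^ 2 = 1} {c : Kb | c ^ (n + 1) = 1}).trans
      (Nat.add_le_add h1.2 h2.2)
    exact_mod_cast h4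
  linarith

omit [Finite K] in
theorem count_c [Finite K] {e : ℕ} (he : 0 < e) (j : ℕ) :
    {c : Kb | c ^ Nat.card K ^ e = c ∧ c ^ (p ^ j + 1) = 1}.Finite ∧
      ({c : Kb | c ^ Nat.card K ^ e = c ∧ c ^ (p ^ j + 1) = 1}.ncard : ℝ) ≤
        4 * Real.sqrt ((Nat.card K : ℝ) ^ e) := by
  have hch : ∃ e, 0 < e ∧ Nat.card K = p ^ e := by
    have := Fintype.ofFinite K
    obtain ⟨n, -, hn⟩ := FiniteField.card K p
    exact ⟨n, n.pos, by rw [Nat.card_eq_fintype_card]; exact hn⟩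
  obtain ⟨f, hf, hQ⟩ := hch
  set m := f * e with hm
  have hmpos : 0 < m := Nat.mul_pos hf he
  have hQe : Nat.card K ^ e = p ^ m := by rw [hQ, ← pow_mul]
  set g := Nat.gcd m (2 * j) with hg
  set n := Nat.sqrt (p ^ g) with hn
  have hsub : {c : Kb | c ^ Nat.card K ^ e = c ∧ c ^ (p ^ j + 1) = 1} ⊆
      {c : Kb | c ^ 2 = 1} ∪ {c : Kb | c ^ (n + 1) = 1} := by
    rintro c ⟨h1, h2⟩
    rw [hQe] at h1
    have hc0 : c ≠ 0 := by
      rintro rfl
      rw [zero_pow (by omega)] at h2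
      exact zero_ne_one h2
    have h3 : c ^ p ^ j = c⁻¹ := by
      rw [pow_succ] at h2
      exact eq_inv_of_mul_eq_one_left h2
    have h4 : c ^ p ^ (2 * j) = c := by
      rw [two_mul, pow_add, pow_mul, h3, inv_pow, h3, inv_inv]
    rcases core1 (pow_gcd h1 h4) (Nat.gcd_dvd_right _ _) h2 with h5 | ⟨n', h5, h6⟩
    · exact Or.inl h5
    · right
      have h7 : n = n' := by rw [hn, hg, ← h5, Nat.sqrt_eq' n']
      rw [Set.mem_ofPred_eq, h7]
      exact h6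
  have hnle : (n : ℝ) ≤ Real.sqrt ((Nat.card K : ℝ) ^ e) := by
    apply Real.le_sqrt_of_sq_le
    have h1 : n ^ 2 ≤ Nat.card K ^ e := by
      refine (Nat.sqrt_le' _).trans ?_
      rw [hQe]
      exact Nat.pow_le_pow_right hp.out.pos (Nat.le_of_dvd hmpos (Nat.gcd_dvd_left _ _))
    exact_mod_cast h1
  have h8 := ncard_two (K := K) (n := n) (one_le_sqrt e) hnle
  refine ⟨h8.1.subset hsub, le_trans ?_ h8.2⟩
  exact_mod_cast Set.ncard_le_ncard hsub h8.1

/-- the roots of the self-dual polynomials of degree `d` -/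
def SdR (σ : K →+* K) (d : ℕ) : Set Kb := {a | ∃ f : K[X], Irr' f ∧ f.natDegree = d ∧ f ∣ str σ f ∧ aeval a f = 0}

theorem sd_count (hσ : ∀ x, σ (σ x) = x) (d : ℕ) :
    (SdR σ d).Finite ∧ ((SdR σ d).ncard : ℝ) ≤ 4 * Real.sqrt ((Nat.card K : ℝ) ^ d) := by
  set n := Nat.sqrt (Nat.card K ^ d) with hn
  have hsub : SdR σ d ⊆ {c : Kb | c ^ 2 = 1} ∪ {c : Kb | c ^ (n + 1) = 1} := by
    rintro a ⟨f, hf, rfl, hsd, ha⟩
    rcases sd_root hσ hf hsd ha with h5 | ⟨n', h5, h6⟩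
    · exact Or.inl h5
    · right
      have h7 : n = n' := by rw [hn, ← h5, Nat.sqrt_eq' n']
      rw [Set.mem_ofPred_eq, h7]
      exact h6
  have hnle : (n : ℝ) ≤ Real.sqrt ((Nat.card K : ℝ) ^ d) := by
    apply Real.le_sqrt_of_sq_le
    have h1 : n ^ 2 ≤ Nat.card K ^ d := Nat.sqrt_le' _
    exact_mod_cast h1
  have h8 := ncard_two (K := K) (n := n) (one_le_sqrt d) hnle
  refine ⟨h8.1.subset hsub, le_trans ?_ h8.2⟩
  exact_mod_cast Set.ncard_le_ncard hsub h8.1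

end sigma

end Cfsg.Agent.H244.Rg
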