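import Mathlib
import Cfsg.Agent.H244.Rg.Sd

/-!
# S5714 [C6]: counting lemmas, the degree `ed`, finite sums
-/

set_option autoImplicit false

namespace Cfsg.Agent.H244.Rg

open Polynomial Module Cfsg.Agent.H141.Rg

section fin

variable {ι : Type*}

theorem finsum_le {S : Set ι} (hS : S.Finite) {g : ι → ℝ} {B N : ℝ} (hB : 0 ≤ B) (hN : (S.ncard : ℝ) ≤ N)
    (h : ∀ x ∈ S, g x ≤ B) : ∑ᶠ x ∈ S, g x ≤ N * B := by
  rw [finsum_mem_eq_finite_toFinset_sum g hS]
  have h1 := Finset.sum_le_card_nsmul hS.toFinset g B (fun x hx => h x (hS.mem_toFinset.1 hx))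
  rw [← Set.ncard_eq_toFinset_card S hS, nsmul_eq_mul] at h1
  exact h1.trans (mul_le_mul_of_nonneg_right hN hB)

theorem finsum_split {S : Set ι} (hS : S.Finite) (A : Set ι) {g : ι → ℝ} {X Y : ℝ} (h1 : ∑ᶠ x ∈ S ∩ A, g x ≤ X)
    (h2 : ∑ᶠ x ∈ S \ A, g x ≤ Y) : ∑ᶠ x ∈ S, g x ≤ X + Y := by
  rw [← finsum_mem_inter_add_sdiff A hS (f := g)]
  exact add_le_add h1 h2

variable {L : Type*} [Field L]

open Classical in
/-- triples -/
theorem triples {S : Set ι} {k : ℕ} {C : Set L} (hC : C.Finite) (G : ℕ → L → L) (P : ι → ℕ → L → L → Prop)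
    (h : ∀ x ∈ S, ∃ m c a, 1 ≤ m ∧ m < k ∧ c ∈ C ∧ a ^ m = G m c ∧ P x m c a)
    (hinj : ∀ x ∈ S, ∀ y ∈ S, ∀ m c a, P x m c a → P y m c a → x = y) :
    S.Finite ∧ (S.ncard : ℝ) ≤ (k : ℝ) ^ 2 * C.ncard := by
  let T : Finset (ℕ × L × L) := (Finset.range k).biUnion fun m => hC.toFinset.biUnion fun c =>
    ((nthRoots m (G m c)).toFinset).image fun a => (m, c, a)
  have hT : T.card ≤ k * (C.ncard * k) := by
    calc T.card ≤ ∑ m ∈ Finset.range k, (hC.toFinset.biUnion fun c =>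
          ((nthRoots m (G m c)).toFinset).image fun a => (m, c, a)).card := Finset.card_biUnion_le
      _ ≤ ∑ _m ∈ Finset.range k, C.ncard * k := by
        apply Finset.sum_le_sum
        intro m hm
        rw [Finset.mem_range] at hm
        calc (hC.toFinset.biUnion fun c => ((nthRoots m (G m c)).toFinset).image fun a => (m, c, a)).card
            ≤ ∑ c ∈ hC.toFinset, (((nthRoots m (G m c)).toFinset).image fun a => (m, c, a)).card :=
              Finset.card_biUnion_le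
          _ ≤ ∑ _c ∈ hC.toFinset, k := by
            apply Finset.sum_le_sum
            intro c _
            exact Finset.card_image_le.trans ((Multiset.toFinset_card_le _).trans ((card_nthRoots _ _).trans hm.le))
          _ = C.ncard * k := by rw [Finset.sum_const, smul_eq_mul, ← Set.ncard_eq_toFinset_card C hC]
      _ = k * (C.ncard * k) := by rw [Finset.sum_const, smul_eq_mul, Finset.card_range]
  choose! m c a h1 h2 h3 h4 h5 using h
  have hmap : ∀ x ∈ S, (fun x => (m x, c x, a x)) x ∈ (T : Set (ℕ × L × L)) := by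
    intro x hx
    show (m x, c x, a x) ∈ T
    rw [Finset.mem_biUnion]
    refine ⟨m x, Finset.mem_range.2 (h2 x hx), ?_⟩
    rw [Finset.mem_biUnion]
    refine ⟨c x, hC.mem_toFinset.2 (h3 x hx), ?_⟩
    rw [Finset.mem_image]
    exact ⟨a x, Multiset.mem_toFinset.2 ((mem_nthRoots (h1 x hx)).2 (h4 x hx)), rfl⟩
  have hin : Set.InjOn (fun x => (m x, c x, a x)) S := by
    intro x hx y hy hxy
    simp only [Prod.mk.injEq] at hxy
    refine hinj x hx y hy (m x) (c x) (a x) (h5 x hx) ?_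
    rw [hxy.1, hxy.2.1, hxy.2.2]
    exact h5 y hy
  have hfin : S.Finite := Set.Finite.of_finite_image ((Finset.finite_toSet T).subset (Set.image_subset_iff.2 hmap)) hin
  refine ⟨hfin, ?_⟩
  have h6 : S.ncard ≤ T.card := by
    rw [← Set.ncard_coe_finset]
    exact Set.ncard_le_ncard_of_injOn _ hmap hin (Finset.finite_toSet T)
  calc (S.ncard : ℝ) ≤ T.card := by exact_mod_cast h6
    _ ≤ (k * (C.ncard * k) : ℕ) := by exact_mod_cast hT
    _ = (k : ℝ) ^ 2 * C.ncard := by push_cast; ring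

/-- unions -/
theorem ncard_iUnion {n : ℕ} {B : ℝ} (hB : 0 ≤ B) (f : ℕ → Set L) (h : ∀ i < n, (f i).Finite ∧ ((f i).ncard : ℝ) ≤ B) :
    {c : L | ∃ i < n, c ∈ f i}.Finite ∧ ({c : L | ∃ i < n, c ∈ f i}.ncard : ℝ) ≤ n * B := by
  induction n with
  | zero =>
    have h1 : {c : L | ∃ i < 0, c ∈ f i} = ∅ := by
      ext c
      simp
    rw [h1]
    simp
  | succ n ih =>
    have h1 : {c : L | ∃ i < n + 1, c ∈ f i} = {c : L | ∃ i < n, c ∈ f i} ∪ f n := by
      ext c
      simp only [Set.mem_ofPred_eq, Set.mem_union]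
      constructor
      · rintro ⟨i, hi, hc⟩
        rcases Nat.lt_succ_iff_lt_or_eq.1 hi with h2 | rfl
        · exact Or.inl ⟨i, h2, hc⟩
        · exact Or.inr hc
      · rintro (⟨i, hi, hc⟩ | hc)
        · exact ⟨i, hi.trans (Nat.lt_succ_self n), hc⟩
        · exact ⟨n, Nat.lt_succ_self n, hc⟩
    have h2 := ih fun i hi => h i (hi.trans (Nat.lt_succ_self n))
    have h3 := h n (Nat.lt_succ_self n)
    rw [h1]
    refine ⟨h2.1.union h3.1, ?_⟩
    have h4 : (({c : L | ∃ i < n, c ∈ f i} ∪ f n).ncard : ℝ) ≤ ({c : L | ∃ i < n, c ∈ f i}.ncard : ℝ) + (f n).ncard := by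
      exact_mod_cast Set.ncard_union_le _ _
    push_cast
    linarith [h2.2, h3.2]

end fin

section edeg

variable {K : Type*} [Field K] {σ : K →+* K}

open Classical in
theorem ed_le {f : K[X]} (hf : f ≠ 0) : ed σ f ≤ f.natDegree :=
  natDegree_le_of_dvd (EuclideanDomain.gcd_dvd_left _ _) hf

theorem str_mul (f g : K[X]) : str σ (f * g) = str σ f * str σ g := by
  unfold str
  rw [Polynomial.map_mul, reverse_mul_of_domain]

theorem str_one : str σ (1 : K[X]) = 1 := by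
  unfold str
  rw [Polynomial.map_one]
  exact reverse_C (1 : K)

theorem str_pow (f : K[X]) (n : ℕ) : str σ (f ^ n) = str σ f ^ n := by
  induction n with
  | zero => rw [pow_zero, pow_zero, str_one]
  | succ n ih => rw [pow_succ, pow_succ, str_mul, ih]

open Classical in
theorem ed_pow_eq_zero {f : K[X]} (hf : Irr' f) (h : ¬ f ∣ str σ f) (n : ℕ) : ed σ (f ^ n) = 0 := by
  unfold ed
  apply natDegree_eq_zero_of_isUnit
  rw [EuclideanDomain.gcd_isUnit_iff, str_pow]
  exact ((hf.2.1.coprime_iff_not_dvd).2 h).pow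

theorem ed_eq_zero {f : K[X]} (hf : Irr' f) (h : ¬ f ∣ str σ f) : ed σ f = 0 := by
  have := ed_pow_eq_zero hf h 1
  rwa [pow_one] at this

open Classical in
theorem ed_mul_le {f h : K[X]} (hf : Irr' f) (hh : Irr' h) (h1 : ¬ h ∣ str σ h) (h2 : ¬ h ∣ str σ f) :
    ed σ (f * h) ≤ f.natDegree := by
  unfold ed
  apply natDegree_le_of_dvd _ hf.1.ne_zero
  have h3 : IsCoprime h (str σ (f * h)) := by
    rw [str_mul, hh.2.1.coprime_iff_not_dvd]
    intro h4
    rcases hh.2.1.prime.dvd_or_dvd h4 with h5 | h5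
    · exact h2 h5
    · exact h1 h5
  have h4 : IsCoprime h (EuclideanDomain.gcd (f * h) (str σ (f * h))) :=
    h3.of_isCoprime_of_dvd_right (EuclideanDomain.gcd_dvd_right _ _)
  exact h4.symm.dvd_of_dvd_mul_right (EuclideanDomain.gcd_dvd_left _ _)

end edeg

section polys

variable {K : Type*} [Field K] [Finite K]

local notation "Kb" => AlgebraicClosure K

/-- the number of polynomials and the number of roots -/
theorem polys_count {S : Set K[X]} {d : ℕ} (hS : ∀ f ∈ S, Irr' f ∧ f.natDegree = d) {R : Set Kb} (hR : R.Finite)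
    (h : ∀ f ∈ S, ∀ a : Kb, aeval a f = 0 → a ∈ R) : S.Finite ∧ d * S.ncard ≤ R.ncard := by
  classical
  have hex : ∀ f ∈ S, ∃ a : Kb, aeval a f = 0 := fun f hf => exists_root (hS f hf).1
  choose! r hr using hex
  have hin : Set.InjOn r S := by
    intro f hf g hg hfg
    rw [← minpoly_eq (hS f hf).1 (hr f hf), ← minpoly_eq (hS g hg).1 (hr g hg), hfg]
  have hfin : S.Finite := Set.Finite.of_finite_image (hR.subset (Set.image_subset_iff.2 fun f hf => h f hf _ (hr f hf))) hin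
  refine ⟨hfin, ?_⟩
  have hfr : ∀ f ∈ S, {x : Kb | aeval x f = 0}.Finite := fun f hf => (orbit_eq (hS f hf).1 (hr f hf)).2.2.1
  have h1 : (hfin.toFinset.biUnion fun f => (f.aroots Kb).toFinset).card = d * S.ncard := by
    rw [Finset.card_biUnion]
    · rw [Finset.sum_congr rfl (g := fun _ => d), Finset.sum_const, smul_eq_mul, ← Set.ncard_eq_toFinset_card S hfin,
        mul_comm]
      intro f hf
      have hf' := hfin.mem_toFinset.1 hf
      have h2 := orbit_eq (hS f hf').1 (hr f hf')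
      rw [← (hS f hf').2, ← h2.2.2.2, ← Set.ncard_coe_finset]
      congr 1
      ext x
      rw [Finset.mem_coe, Multiset.mem_toFinset, h2.1, Set.mem_ofPred_eq]
    · intro f hf g hg hfg
      have hf' := hfin.mem_toFinset.1 hf
      have hg' := hfin.mem_toFinset.1 hg
      show Disjoint (f.aroots Kb).toFinset (g.aroots Kb).toFinset
      rw [Finset.disjoint_left]
      intro x hx hx'
      rw [Multiset.mem_toFinset, (orbit_eq (hS f hf').1 (hr f hf')).1] at hx
      rw [Multiset.mem_toFinset, (orbit_eq (hS g hg').1 (hr g hg')).1] at hx'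
      exact hfg (by rw [← minpoly_eq (hS f hf').1 hx, ← minpoly_eq (hS g hg').1 hx'])
  rw [← h1, ← Set.ncard_coe_finset]
  apply Set.ncard_le_ncard _ hR
  intro x hx
  rw [Finset.mem_coe, Finset.mem_biUnion] at hx
  obtain ⟨f, hf, hx⟩ := hx
  have hf' := hfin.mem_toFinset.1 hf
  rw [Multiset.mem_toFinset, (orbit_eq (hS f hf').1 (hr f hf')).1] at hx
  exact h f hf' x hx

/-- all polynomials of degree `d` -/
theorem all_count (d : ℕ) (hd : 0 < d) : {f : K[X] | Irr' f ∧ f.natDegree = d}.Finite ∧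
    d * ({f : K[X] | Irr' f ∧ f.natDegree = d}.ncard : ℝ) ≤ (Nat.card K : ℝ) ^ d := by
  have h1 := ncard_self (L := Kb) (one_lt_pow (K := K) hd)
  have h2 := polys_count (S := {f : K[X] | Irr' f ∧ f.natDegree = d}) (d := d) (fun f hf => hf) h1.1 (by
    rintro f ⟨hf, rfl⟩ a ha
    exact root_pow hf ha)
  refine ⟨h2.1, ?_⟩
  exact_mod_cast h2.2.trans h1.2

/-- the self-dual polynomials of degree `d` -/
theorem sdp_count {σ : K →+* K} (hσ : ∀ x, σ (σ x) = x) (d : ℕ) :
    {f : K[X] | Irr' f ∧ f.natDegree = d ∧ f ∣ str σ f}.Finite ∧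
    d * ({f : K[X] | Irr' f ∧ f.natDegree = d ∧ f ∣ str σ f}.ncard : ℝ) ≤ 4 * Real.sqrt ((Nat.card K : ℝ) ^ d) := by
  have h1 := sd_count hσ d
  have h2 := polys_count (S := {f : K[X] | Irr' f ∧ f.natDegree = d ∧ f ∣ str σ f}) (d := d)
    (fun f hf => ⟨hf.1, hf.2.1⟩) h1.1 (by
    rintro f ⟨hf, hd, hs⟩ a ha
    exact ⟨f, hf, hd, hs, ha⟩)
  refine ⟨h2.1, ?_⟩
  refine le_trans ?_ h1.2
  exact_mod_cast h2.2

/-- small subfields -/
theorem count_small (w d : ℕ) (hw : 0 < w) : {c : Kb | ∃ g, 0 < g ∧ w * g ≤ d ∧ c ^ Nat.card K ^ g = c}.Finite ∧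
    ({c : Kb | ∃ g, 0 < g ∧ w * g ≤ d ∧ c ^ Nat.card K ^ g = c}.ncard : ℝ) ≤ d * (Nat.card K : ℝ) ^ ((d : ℝ) / w) := by
  have hq : (1 : ℝ) ≤ Nat.card K := by exact_mod_cast (one_lt_card (K := K)).le
  have hB : 0 ≤ (Nat.card K : ℝ) ^ ((d : ℝ) / w) := by positivity
  have h1 := ncard_iUnion (L := Kb) (n := d) hB
    (fun i => {c : Kb | w * (i + 1) ≤ d ∧ c ^ Nat.card K ^ (i + 1) = c}) (by
      intro i hi
      have h2 := ncard_self (L := Kb) (one_lt_pow (K := K) (Nat.succ_pos i))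
      by_cases h3 : w * (i + 1) ≤ d
      · have h4 : {c : Kb | w * (i + 1) ≤ d ∧ c ^ Nat.card K ^ (i + 1) = c} ⊆ {c : Kb | c ^ Nat.card K ^ (i + 1) = c} :=
          fun c hc => hc.2
        refine ⟨h2.1.subset h4, ?_⟩
        have h5 : ((Set.ncard {c : Kb | w * (i + 1) ≤ d ∧ c ^ Nat.card K ^ (i + 1) = c} : ℕ) : ℝ) ≤
            (Nat.card K : ℝ) ^ (i + 1) := by
          exact_mod_cast (Set.ncard_le_ncard h4 h2.1).trans h2.2
        refine h5.trans ?_
        rw [← Real.rpow_natCast]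
        apply Real.rpow_le_rpow_of_exponent_le hq
        rw [le_div_iff₀ (by exact_mod_cast hw), mul_comm]
        exact_mod_cast h3
      · have h4 : {c : Kb | w * (i + 1) ≤ d ∧ c ^ Nat.card K ^ (i + 1) = c} = ∅ := by
          ext c
          simp [h3]
        rw [h4]
        exact ⟨Set.finite_empty, by rw [Set.ncard_empty]; simpa using hB⟩)
  have h2 : {c : Kb | ∃ g, 0 < g ∧ w * g ≤ d ∧ c ^ Nat.card K ^ g = c} ⊆
      {c : Kb | ∃ i < d, c ∈ {c : Kb | w * (i + 1) ≤ d ∧ c ^ Nat.card K ^ (i + 1) = c}} := by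
    rintro c ⟨g, hg0, hg, hc⟩
    refine ⟨g - 1, ?_, ?_, ?_⟩
    · have : g ≤ w * g := Nat.le_mul_of_pos_left g hw
      omega
    · rw [Nat.sub_add_cancel hg0]; exact hg
    · rw [Nat.sub_add_cancel hg0]; exact hc
  refine ⟨h1.1.subset h2, le_trans ?_ h1.2⟩
  exact_mod_cast Set.ncard_le_ncard h2 h1.1

theorem count_dual {p : ℕ} [Fact p.Prime] [CharP K p] {e : ℕ} (he : 0 < e) (s n : ℕ) :
    {c : Kb | ∃ i < n, c ∈ {c : Kb | c ^ Nat.card K ^ e = c ∧ c ^ (p ^ s * Nat.card K ^ i + 1) = 1}}.Finite ∧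
      ({c : Kb | ∃ i < n, c ∈ {c : Kb | c ^ Nat.card K ^ e = c ∧ c ^ (p ^ s * Nat.card K ^ i + 1) = 1}}.ncard : ℝ) ≤
        n * (4 * Real.sqrt ((Nat.card K : ℝ) ^ e)) := by
  have hch : ∃ e, 0 < e ∧ Nat.card K = p ^ e := by
    have := Fintype.ofFinite K
    obtain ⟨n, -, hn⟩ := FiniteField.card K p
    exact ⟨n, n.pos, by rw [Nat.card_eq_fintype_card]; exact hn⟩
  obtain ⟨f, hf, hQ⟩ := hch
  apply ncard_iUnion (by positivity)
  intro i _
  have h1 : p ^ s * Nat.card K ^ i = p ^ (s + f * i) := by rw [hQ, ← pow_mul, ← pow_add]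
  rw [h1]
  exact count_c he (s + f * i)

end polys

end Cfsg.Agent.H244.Rg
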