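import Mathlib
import Cfsg.Agent.H244.Rg.Cnt

/-!
# S5714 [C6]: the sums over irreducible polynomials: `sum_rep`, `sum_cyc`, `sum_b1`, `sum_b2`
-/

set_option autoImplicit false

namespace Cfsg.Agent.H244.Rg

open Polynomial Module Cfsg.Agent.H141.Rg

section real

variable {q : ℝ} (hq : 2 ≤ q)

include hq

theorem two_le_pow {d : ℕ} (hd : 1 ≤ d) : 2 ≤ q ^ d := by
  calc (2 : ℝ) ≤ q := hq
    _ = q ^ 1 := (pow_one q).symm
    _ ≤ q ^ d := pow_le_pow_right₀ (by linarith) hd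

theorem half_le {d : ℕ} (hd : 1 ≤ d) : q ^ d / 2 ≤ q ^ d - 1 := by
  have := two_le_pow hq hd
  linarith

theorem sqrt_mono {a b : ℕ} (hab : a ≤ b) : Real.sqrt (q ^ a) ≤ Real.sqrt (q ^ b) :=
  Real.sqrt_le_sqrt (pow_le_pow_right₀ (by linarith) hab)

theorem sqrt_rpow (n : ℕ) : Real.sqrt (q ^ n) = q ^ ((n : ℝ) / 2) := by
  rw [Real.sqrt_eq_rpow, ← Real.rpow_natCast, ← Real.rpow_mul (by linarith)]
  congr 1; ring

/-- the first term -/
theorem term_le {d a n : ℕ} (hd : 1 ≤ d) (ha : a ≤ n) :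
    Real.sqrt (q ^ a) / (q ^ d - 1) ≤ 2 * q ^ ((n : ℝ) / 2 - d) := by
  have h1 := half_le hq hd
  have h2 := two_le_pow hq hd
  have h3 := sqrt_mono hq ha
  rw [sqrt_rpow hq n] at h3
  have h0 : (0 : ℝ) < q := by linarith
  rw [div_le_iff₀ (by linarith), Real.rpow_sub h0, Real.rpow_natCast]
  have h4 : 0 < q ^ ((n : ℝ) / 2) := Real.rpow_pos_of_pos h0 _
  calc Real.sqrt (q ^ a) ≤ q ^ ((n : ℝ) / 2) := h3
    _ = 2 * (q ^ ((n : ℝ) / 2) / q ^ d) * (q ^ d / 2) := by
      field_simp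
    _ ≤ 2 * (q ^ ((n : ℝ) / 2) / q ^ d) * (q ^ d - 1) := by
      apply mul_le_mul_of_nonneg_left h1
      positivity

theorem term2_le {d e a n : ℕ} (hd : 1 ≤ d) (he : 1 ≤ e) (ha : a ≤ n) :
    Real.sqrt (q ^ a) / ((q ^ d - 1) * (q ^ e - 1)) ≤ 4 * q ^ ((n : ℝ) / 2 - d - e) := by
  have h1 := half_le hq hd
  have h2 := two_le_pow hq hd
  have h1' := half_le hq he
  have h2' := two_le_pow hq he
  have h3 := sqrt_mono hq ha
  rw [sqrt_rpow hq n] at h3
  have h0 : (0 : ℝ) < q := by linarith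
  rw [div_le_iff₀ (mul_pos (by linarith) (by linarith)), Real.rpow_sub h0, Real.rpow_sub h0, Real.rpow_natCast,
    Real.rpow_natCast]
  have h4 : 0 < q ^ ((n : ℝ) / 2) := Real.rpow_pos_of_pos h0 _
  calc Real.sqrt (q ^ a) ≤ q ^ ((n : ℝ) / 2) := h3
    _ = 4 * (q ^ ((n : ℝ) / 2) / q ^ d / q ^ e) * ((q ^ d / 2) * (q ^ e / 2)) := by
      field_simp
      norm_num
    _ ≤ 4 * (q ^ ((n : ℝ) / 2) / q ^ d / q ^ e) * ((q ^ d - 1) * (q ^ e - 1)) := by
      apply mul_le_mul_of_nonneg_left _ (by positivity)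
      exact mul_le_mul h1 h1' (by positivity) (by linarith)

end real

theorem two_le_card (K : Type*) [Field K] [Finite K] : (2 : ℝ) ≤ Nat.card K := by
  exact_mod_cast one_lt_card (K := K)

theorem sq_le_cube (k : ℕ) : (k : ℝ) ^ 2 ≤ (k : ℝ) ^ 3 := by
  rcases Nat.eq_zero_or_pos k with rfl | hk
  · simp
  · exact pow_le_pow_right₀ (by exact_mod_cast hk) (by norm_num)

section sums

variable {K : Type*} [Field K] [Finite K] {σ : K →+* K} (hσ : ∀ x, σ (σ x) = x)

include hσ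

/-- **`sum_rep`** -/
theorem sum_rep' {d : ℕ} (hd : 1 ≤ d) :
    (∑ᶠ f ∈ {f : K[X] | Irr' f ∧ f.natDegree = d}, (Real.sqrt ((Nat.card K : ℝ) ^ ed σ f) / ((Nat.card K : ℝ) ^ (2 * d) - 1) +
      Real.sqrt ((Nat.card K : ℝ) ^ ed σ (f ^ 2)) / ((Nat.card K : ℝ) ^ d * ((Nat.card K : ℝ) ^ d - 1)))) ≤
      20 * (Nat.card K : ℝ) ^ (-(d : ℝ) / 2) := by
  have hq := two_le_card K
  set q : ℝ := (Nat.card K : ℝ) with hqd
  have hd0 : 0 < d := hd
  have hd1 : (1 : ℝ) ≤ d := by exact_mod_cast hd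
  obtain ⟨hfin, hall⟩ := all_count (K := K) d hd0
  obtain ⟨-, hsd⟩ := sdp_count hσ d
  have hX := two_le_pow hq hd
  have hX2 : q ^ (2 * d) = q ^ d * q ^ d := by rw [two_mul, pow_add]
  have hx0 : 0 < Real.sqrt (q ^ d) := Real.sqrt_pos.2 (by linarith)
  have hxx : Real.sqrt (q ^ d) * Real.sqrt (q ^ d) = q ^ d := Real.mul_self_sqrt (by linarith)
  have hx1 : 1 ≤ Real.sqrt (q ^ d) := by rw [Real.one_le_sqrt]; linarith
  have hs2 : Real.sqrt (q ^ (2 * d)) = q ^ d := by rw [hX2, Real.sqrt_mul_self (by linarith)]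
  have hneg : q ^ (-(d : ℝ) / 2) = 1 / Real.sqrt (q ^ d) := by
    rw [sqrt_rpow hq, neg_div, Real.rpow_neg (by linarith), one_div]
  rw [hneg]
  set X : ℝ := q ^ d with hXd
  set x : ℝ := Real.sqrt X with hxd
  have h1 : ∑ᶠ f ∈ {f : K[X] | Irr' f ∧ f.natDegree = d} ∩ {f | f ∣ str σ f},
      (Real.sqrt (q ^ ed σ f) / (q ^ (2 * d) - 1) + Real.sqrt (q ^ ed σ (f ^ 2)) / (X * (X - 1))) ≤
      (4 * x) * (4 / X) := by
    refine finsum_le (hfin.inter_of_left _) (by positivity) ?_ ?_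
    · have h2 : {f : K[X] | Irr' f ∧ f.natDegree = d} ∩ {f | f ∣ str σ f} =
          {f : K[X] | Irr' f ∧ f.natDegree = d ∧ f ∣ str σ f} := by
        ext f
        simp only [Set.mem_inter_iff, Set.mem_ofPred_eq, and_assoc]
      rw [h2]
      refine le_trans ?_ hsd
      exact le_mul_of_one_le_left (Nat.cast_nonneg _) hd1
    · rintro f ⟨⟨hf, hfd⟩, -⟩
      have e1 : Real.sqrt (q ^ ed σ f) ≤ x := sqrt_mono hq (by rw [← hfd]; exact ed_le hf.1.ne_zero)
      have e2 : Real.sqrt (q ^ ed σ (f ^ 2)) ≤ X := by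
        rw [← hs2]
        refine sqrt_mono hq ((ed_le (pow_ne_zero 2 hf.1.ne_zero)).trans ?_)
        rw [natDegree_pow, hfd]
      have e3 : Real.sqrt (q ^ ed σ f) / (q ^ (2 * d) - 1) ≤ 2 / X := by
        rw [hX2, div_le_div_iff₀ (by nlinarith) (by linarith)]
        have e5 : x ≤ X := by nlinarith
        nlinarith
      have e4 : Real.sqrt (q ^ ed σ (f ^ 2)) / (X * (X - 1)) ≤ 2 / X := by
        rw [div_le_div_iff₀ (by nlinarith) (by linarith)]
        nlinarith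
      calc _ ≤ 2 / X + 2 / X := add_le_add e3 e4
        _ = 4 / X := by ring
  have h2 : ∑ᶠ f ∈ {f : K[X] | Irr' f ∧ f.natDegree = d} \ {f | f ∣ str σ f},
      (Real.sqrt (q ^ ed σ f) / (q ^ (2 * d) - 1) + Real.sqrt (q ^ ed σ (f ^ 2)) / (X * (X - 1))) ≤
      X * (4 / (X * X)) := by
    refine finsum_le (hfin.subset Set.diff_subset) (by positivity) ?_ ?_
    · have h3 : (({f : K[X] | Irr' f ∧ f.natDegree = d} \ {f | f ∣ str σ f}).ncard : ℝ) ≤
          ({f : K[X] | Irr' f ∧ f.natDegree = d}).ncard := by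
        exact_mod_cast Set.ncard_le_ncard Set.diff_subset hfin
      refine h3.trans (le_trans ?_ hall)
      exact le_mul_of_one_le_left (Nat.cast_nonneg _) hd1
    · rintro f ⟨⟨hf, hfd⟩, hn⟩
      rw [ed_eq_zero hf hn, ed_pow_eq_zero hf hn, pow_zero, Real.sqrt_one, hX2]
      have e3 : 1 / (X * X - 1) ≤ 2 / (X * X) := by
        rw [div_le_div_iff₀ (by nlinarith) (by nlinarith)]
        nlinarith
      have e4 : 1 / (X * (X - 1)) ≤ 2 / (X * X) := by
        rw [div_le_div_iff₀ (by nlinarith) (by nlinarith)]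
        nlinarith
      calc _ ≤ 2 / (X * X) + 2 / (X * X) := add_le_add e3 e4
        _ = 4 / (X * X) := by ring
  refine (finsum_split hfin _ h1 h2).trans ?_
  have e1 : 4 * x * (4 / X) = 16 / x := by
    rw [← hxx]; field_simp; norm_num
  have e2 : X * (4 / (X * X)) = 4 / X := by field_simp
  have e3 : 4 / X ≤ 4 / x := by
    apply div_le_div_of_nonneg_left (by norm_num) hx0
    nlinarith
  rw [e1, e2]
  calc 16 / x + 4 / X ≤ 16 / x + 4 / x := by linarith
    _ = 20 * (1 / x) := by ring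

/-- **`sum_cyc`** -/
theorem sum_cyc' {d : ℕ} (hd : 1 ≤ d) :
    (∑ᶠ f ∈ {f : K[X] | Irr' f ∧ f.natDegree = d}, (d : ℝ) * ∑' j : ℕ, Real.sqrt ((Nat.card K : ℝ) ^ ed σ (f ^ (j + 1))) /
      ((Nat.card K : ℝ) ^ (d * j) * ((Nat.card K : ℝ) ^ d - 1))) ≤ 36 := by
  have hq := two_le_card K
  set q : ℝ := (Nat.card K : ℝ) with hqd
  have hd0 : 0 < d := hd
  have hd1 : (1 : ℝ) ≤ d := by exact_mod_cast hd
  obtain ⟨hfin, hall⟩ := all_count (K := K) d hd0
  obtain ⟨-, hsd⟩ := sdp_count hσ d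
  have hX := two_le_pow hq hd
  have hx0 : 0 < Real.sqrt (q ^ d) := Real.sqrt_pos.2 (by linarith)
  have hxx : Real.sqrt (q ^ d) * Real.sqrt (q ^ d) = q ^ d := Real.mul_self_sqrt (by linarith)
  have hx43 : 4 / 3 ≤ Real.sqrt (q ^ d) := by
    apply Real.le_sqrt_of_sq_le
    linarith
  have hxj : ∀ j : ℕ, Real.sqrt (q ^ (d * j)) = Real.sqrt (q ^ d) ^ j := by
    intro j
    induction j with
    | zero => simp
    | succ n ih => rw [Nat.mul_succ, pow_add, Real.sqrt_mul (by positivity), ih, pow_succ]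
  set X : ℝ := q ^ d with hXd
  set x : ℝ := Real.sqrt X with hxd
  have hqj : ∀ j : ℕ, q ^ (d * j) = X ^ j := fun j => by rw [pow_mul]
  have hx1 : (1 : ℝ) < x := by linarith
  have h1 : ∑ᶠ f ∈ {f : K[X] | Irr' f ∧ f.natDegree = d} ∩ {f | f ∣ str σ f},
      ((d : ℝ) * ∑' j : ℕ, Real.sqrt (q ^ ed σ (f ^ (j + 1))) / (q ^ (d * j) * (X - 1))) ≤
      ({f : K[X] | Irr' f ∧ f.natDegree = d ∧ f ∣ str σ f}.ncard : ℝ) * (d * (8 / x)) := by
    refine finsum_le (hfin.inter_of_left _) (by positivity) ?_ ?_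
    · have h2 : {f : K[X] | Irr' f ∧ f.natDegree = d} ∩ {f | f ∣ str σ f} =
          {f : K[X] | Irr' f ∧ f.natDegree = d ∧ f ∣ str σ f} := by
        ext f
        simp only [Set.mem_inter_iff, Set.mem_ofPred_eq, and_assoc]
      rw [h2]
    · rintro f ⟨⟨hf, hfd⟩, -⟩
      apply mul_le_mul_of_nonneg_left _ (by positivity)
      have hb : ∀ j : ℕ, Real.sqrt (q ^ ed σ (f ^ (j + 1))) / (q ^ (d * j) * (X - 1)) ≤ (x / (X - 1)) * (1 / x) ^ j := by
        intro j
        have e1 : Real.sqrt (q ^ ed σ (f ^ (j + 1))) ≤ x ^ (j + 1) := by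
          rw [← hxj]
          refine sqrt_mono hq ((ed_le (pow_ne_zero _ hf.1.ne_zero)).trans ?_)
          rw [natDegree_pow, hfd, mul_comm]
        have e2 : x / (X - 1) * (1 / x) ^ j = x ^ (j + 1) / (X ^ j * (X - 1)) := by
          have e5 : X ^ j = x ^ j * x ^ j := by rw [← hxx, mul_pow]
          have e6 : X - 1 ≠ 0 := by linarith
          rw [e5, one_div, inv_pow, pow_succ]
          field_simp
        rw [e2, hqj]
        apply div_le_div_of_nonneg_right e1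
        have : 0 < X - 1 := by linarith
        positivity
      have hx1' : 1 / x < 1 := by rw [div_lt_one hx0]; exact hx1
      have hgeo : Summable fun j : ℕ => (x / (X - 1)) * (1 / x) ^ j :=
        (summable_geometric_of_lt_one (by positivity) hx1').mul_left _
      have hnn : ∀ j : ℕ, 0 ≤ Real.sqrt (q ^ ed σ (f ^ (j + 1))) / (q ^ (d * j) * (X - 1)) := by
        intro j
        have : 0 < X - 1 := by linarith
        positivity
      have hsum := Summable.of_nonneg_of_le hnn hb hgeo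
      refine (hsum.tsum_le_tsum hb hgeo).trans ?_
      rw [tsum_mul_left, tsum_geometric_of_lt_one (by positivity) hx1']
      have e3 : x / (X - 1) ≤ 2 / x := by
        rw [div_le_div_iff₀ (by linarith) hx0, hxx]
        linarith
      have e4 : (1 - 1 / x)⁻¹ ≤ 4 := by
        rw [inv_le_comm₀ (by linarith) (by norm_num)]
        rw [div_lt_one hx0] at hx1'
        have : 1 / x ≤ 3 / 4 := by
          rw [div_le_div_iff₀ hx0 (by norm_num)]
          linarith
        linarith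
      calc x / (X - 1) * (1 - 1 / x)⁻¹ ≤ 2 / x * 4 := by
            apply mul_le_mul e3 e4 _ (by positivity)
            rw [inv_nonneg]; linarith
        _ = 8 / x := by ring
  have h2 : ∑ᶠ f ∈ {f : K[X] | Irr' f ∧ f.natDegree = d} \ {f | f ∣ str σ f},
      ((d : ℝ) * ∑' j : ℕ, Real.sqrt (q ^ ed σ (f ^ (j + 1))) / (q ^ (d * j) * (X - 1))) ≤
      ({f : K[X] | Irr' f ∧ f.natDegree = d}.ncard : ℝ) * (d * (4 / X)) := by
    refine finsum_le (hfin.subset Set.diff_subset) (by positivity) ?_ ?_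
    · exact_mod_cast Set.ncard_le_ncard Set.diff_subset hfin
    · rintro f ⟨⟨hf, hfd⟩, hn⟩
      apply mul_le_mul_of_nonneg_left _ (by positivity)
      have hb : ∀ j : ℕ, Real.sqrt (q ^ ed σ (f ^ (j + 1))) / (q ^ (d * j) * (X - 1)) = (1 / (X - 1)) * (1 / X) ^ j := by
        intro j
        rw [ed_pow_eq_zero hf hn, pow_zero, Real.sqrt_one, hqj, one_div, one_div, one_div, mul_inv, inv_pow, mul_comm]
      have hX1 : 1 / X < 1 := by rw [div_lt_one (by linarith)]; linarith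
      rw [tsum_congr hb, tsum_mul_left, tsum_geometric_of_lt_one (by positivity) hX1]
      have e3 : 1 / (X - 1) ≤ 2 / X := by
        rw [div_le_div_iff₀ (by linarith) (by linarith)]
        linarith
      have e5 : 1 / X ≤ 1 / 2 := by
        rw [div_le_div_iff₀ (by linarith) (by norm_num)]
        linarith
      have e4 : (1 - 1 / X)⁻¹ ≤ 2 := by
        rw [inv_le_comm₀ (by linarith) (by norm_num)]
        linarith
      calc 1 / (X - 1) * (1 - 1 / X)⁻¹ ≤ 2 / X * 2 := by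
            apply mul_le_mul e3 e4 _ (by positivity)
            rw [inv_nonneg]; linarith
        _ = 4 / X := by ring
  refine (finsum_split hfin _ h1 h2).trans ?_
  have e1 : ({f : K[X] | Irr' f ∧ f.natDegree = d ∧ f ∣ str σ f}.ncard : ℝ) * (d * (8 / x)) ≤ 32 := by
    calc ({f : K[X] | Irr' f ∧ f.natDegree = d ∧ f ∣ str σ f}.ncard : ℝ) * (d * (8 / x))
        = (d * ({f : K[X] | Irr' f ∧ f.natDegree = d ∧ f ∣ str σ f}.ncard : ℝ)) * (8 / x) := by ring
      _ ≤ (4 * x) * (8 / x) := by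
        apply mul_le_mul_of_nonneg_right _ (by positivity)
        exact hsd
      _ = 32 := by field_simp; norm_num
  have e2 : ({f : K[X] | Irr' f ∧ f.natDegree = d}.ncard : ℝ) * (d * (4 / X)) ≤ 4 := by
    calc ({f : K[X] | Irr' f ∧ f.natDegree = d}.ncard : ℝ) * (d * (4 / X))
        = (d * ({f : K[X] | Irr' f ∧ f.natDegree = d}.ncard : ℝ)) * (4 / X) := by ring
      _ ≤ X * (4 / X) := by
        apply mul_le_mul_of_nonneg_right _ (by positivity)
        exact hall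
      _ = 4 := by field_simp
  linarith

end sums

end Cfsg.Agent.H244.Rg
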