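import Mathlib
import Cfsg.Agent.H244.Rg.Sums

/-!
# S5714 [C6]: the sums over the polynomials with coincidences between powers of the roots: `sum_b1`, `sum_b2`
-/

set_option autoImplicit false

namespace Cfsg.Agent.H244.Rg

open Polynomial Module Cfsg.Agent.H141.Rg

section sums

variable {K : Type*} [Field K] [Finite K] {σ : K →+* K} (hσ : ∀ x, σ (σ x) = x)

local notation "Kb" => AlgebraicClosure K

include hσ

/-- **`sum_b1`** -/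
theorem sum_b1' (k : ℕ) {d : ℕ} (hd : 1 ≤ d) :
    (∑ᶠ f ∈ {f : K[X] | Irr' f ∧ f.natDegree = d ∧ B1 k f}, Real.sqrt ((Nat.card K : ℝ) ^ ed σ f) /
      ((Nat.card K : ℝ) ^ d - 1)) ≤ 8 * k ^ 3 * d * (Nat.card K : ℝ) ^ (-(d : ℝ) / 6) := by
  have hq := two_le_card K
  have hd0 : 0 < d := hd
  have hd1 : (1 : ℝ) ≤ d := by exact_mod_cast hd
  have hfin : {f : K[X] | Irr' f ∧ f.natDegree = d ∧ B1 k f}.Finite :=
    (all_count (K := K) d hd0).1.subset fun f hf => ⟨hf.1, hf.2.1⟩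
  have hq0 : (0 : ℝ) < (Nat.card K : ℝ) := by linarith
  have hq1 : (1 : ℝ) ≤ (Nat.card K : ℝ) := by linarith
  -- self-dual
  have h1 : ∑ᶠ f ∈ {f : K[X] | Irr' f ∧ f.natDegree = d ∧ B1 k f} ∩ {f | f ∣ str σ f},
      Real.sqrt ((Nat.card K : ℝ) ^ ed σ f) / ((Nat.card K : ℝ) ^ d - 1) ≤
      ((k : ℝ) ^ 2 * (3 * d * (Nat.card K : ℝ) ^ ((d : ℝ) / 3))) * (2 * (Nat.card K : ℝ) ^ ((d : ℝ) / 2 - d)) := by
    have hc1 := ncard_nth (L := Kb) (n := 2) (by norm_num) 1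
    have hc2 := count_small (K := K) 3 d (by norm_num)
    have hC := hc1.1.union hc2.1
    have hCc : (({c : Kb | c ^ 2 = 1} ∪ {c : Kb | ∃ g, 0 < g ∧ 3 * g ≤ d ∧ c ^ Nat.card K ^ g = c}).ncard : ℝ) ≤
        3 * d * (Nat.card K : ℝ) ^ ((d : ℝ) / 3) := by
      have h2 : (({c : Kb | c ^ 2 = 1} ∪ {c : Kb | ∃ g, 0 < g ∧ 3 * g ≤ d ∧ c ^ Nat.card K ^ g = c}).ncard : ℝ) ≤
          ({c : Kb | c ^ 2 = 1}.ncard : ℝ) + ({c : Kb | ∃ g, 0 < g ∧ 3 * g ≤ d ∧ c ^ Nat.card K ^ g = c}.ncard : ℝ) := by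
        exact_mod_cast Set.ncard_union_le _ _
      have h3 : ({c : Kb | c ^ 2 = 1}.ncard : ℝ) ≤ 2 := by exact_mod_cast hc1.2
      have h4 := hc2.2
      push_cast at h4
      have h5 : (1 : ℝ) ≤ (Nat.card K : ℝ) ^ ((d : ℝ) / 3) := Real.one_le_rpow hq1 (by positivity)
      have h6 : (1 : ℝ) ≤ d * (Nat.card K : ℝ) ^ ((d : ℝ) / 3) := by nlinarith
      linarith
    have htr := triples (S := {f : K[X] | Irr' f ∧ f.natDegree = d ∧ B1 k f} ∩ {f | f ∣ str σ f}) (k := k) hC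
      (fun _ c => c) (fun f _ _ a => aeval a f = 0) (by
        rintro f ⟨⟨hf, hfd, m, hm1, hmk, a, b, ha, hb, hab, habm⟩, hsd⟩
        refine ⟨m, a ^ m, a, hm1, hmk, ?_, rfl, ha⟩
        rcases b1_sd_root hσ hf hsd ha hb hab habm with h2 | h2
        · exact Or.inl h2
        · right
          rw [Set.mem_ofPred_eq, ← hfd]
          exact h2) (by
        rintro f ⟨⟨hf, -⟩, -⟩ g ⟨⟨hg, -⟩, -⟩ m c a h2 h3
        rw [← minpoly_eq hf h2, ← minpoly_eq hg h3])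
    refine finsum_le htr.1 (by positivity) (htr.2.trans (mul_le_mul_of_nonneg_left hCc (by positivity))) ?_
    rintro f ⟨⟨hf, hfd, -⟩, -⟩
    exact term_le hq hd (by rw [← hfd]; exact ed_le hf.1.ne_zero)
  -- not self-dual
  have h2 : ∑ᶠ f ∈ {f : K[X] | Irr' f ∧ f.natDegree = d ∧ B1 k f} \ {f | f ∣ str σ f},
      Real.sqrt ((Nat.card K : ℝ) ^ ed σ f) / ((Nat.card K : ℝ) ^ d - 1) ≤
      ((k : ℝ) ^ 2 * (d * (Nat.card K : ℝ) ^ ((d : ℝ) / 2))) * (2 * (Nat.card K : ℝ) ^ (((0 : ℕ) : ℝ) / 2 - d)) := by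
    have hc2 := count_small (K := K) 2 d (by norm_num)
    have htr := triples (S := {f : K[X] | Irr' f ∧ f.natDegree = d ∧ B1 k f} \ {f | f ∣ str σ f}) (k := k) hc2.1
      (fun _ c => c) (fun f _ _ a => aeval a f = 0) (by
        rintro f ⟨⟨hf, hfd, m, hm1, hmk, a, b, ha, hb, hab, habm⟩, -⟩
        refine ⟨m, a ^ m, a, hm1, hmk, ?_, rfl, ha⟩
        obtain ⟨g, hg0, hgd, hlt, hc⟩ := b1_root hf ha hb hab habm
        refine ⟨g, hg0, ?_, hc⟩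
        obtain ⟨u, hu⟩ := hgd
        rw [hfd] at hu hlt
        rw [hu]
        have hu2 : 2 ≤ u := by
          rcases u with _ | _ | u
          · omega
          · omega
          · omega
        nlinarith) (by
        rintro f ⟨⟨hf, -⟩, -⟩ g ⟨⟨hg, -⟩, -⟩ m c a h2 h3
        rw [← minpoly_eq hf h2, ← minpoly_eq hg h3])
    have h4 := hc2.2
    push_cast at h4
    refine finsum_le htr.1 (by positivity) (htr.2.trans (mul_le_mul_of_nonneg_left h4 (by positivity))) ?_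
    rintro f ⟨⟨hf, hfd, -⟩, hn⟩
    exact term_le hq hd (by rw [ed_eq_zero hf hn])
  refine (finsum_split hfin _ h1 h2).trans ?_
  have e1 : (Nat.card K : ℝ) ^ ((d : ℝ) / 3) * (Nat.card K : ℝ) ^ ((d : ℝ) / 2 - d) = (Nat.card K : ℝ) ^ (-(d : ℝ) / 6) := by
    rw [← Real.rpow_add hq0]; congr 1; ring
  have e2 : (Nat.card K : ℝ) ^ ((d : ℝ) / 2) * (Nat.card K : ℝ) ^ (((0 : ℕ) : ℝ) / 2 - d) ≤
      (Nat.card K : ℝ) ^ (-(d : ℝ) / 6) := by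
    rw [← Real.rpow_add hq0]
    apply Real.rpow_le_rpow_of_exponent_le hq1
    push_cast
    linarith
  have hk := sq_le_cube k
  have hz : 0 ≤ (Nat.card K : ℝ) ^ (-(d : ℝ) / 6) := by positivity
  calc _ = (k : ℝ) ^ 2 * (6 * d) * ((Nat.card K : ℝ) ^ ((d : ℝ) / 3) * (Nat.card K : ℝ) ^ ((d : ℝ) / 2 - d)) +
        (k : ℝ) ^ 2 * (2 * d) * ((Nat.card K : ℝ) ^ ((d : ℝ) / 2) * (Nat.card K : ℝ) ^ (((0 : ℕ) : ℝ) / 2 - d)) := by ring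
    _ ≤ (k : ℝ) ^ 2 * (6 * d) * (Nat.card K : ℝ) ^ (-(d : ℝ) / 6) +
        (k : ℝ) ^ 2 * (2 * d) * (Nat.card K : ℝ) ^ (-(d : ℝ) / 6) := by
      rw [e1]
      have := mul_le_mul_of_nonneg_left e2 (show 0 ≤ (k : ℝ) ^ 2 * (2 * d) by positivity)
      linarith
    _ = (k : ℝ) ^ 2 * (8 * d * (Nat.card K : ℝ) ^ (-(d : ℝ) / 6)) := by ring
    _ ≤ (k : ℝ) ^ 3 * (8 * d * (Nat.card K : ℝ) ^ (-(d : ℝ) / 6)) :=
      mul_le_mul_of_nonneg_right hk (by positivity)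
    _ = _ := by ring

/-- **`sum_b2`** -/
theorem sum_b2' (k : ℕ) {d e : ℕ} (he : 1 ≤ e) (hed : e ≤ d) :
    (∑ᶠ p ∈ {p : K[X] × K[X] | Irr' p.1 ∧ Irr' p.2 ∧ p.1.natDegree = d ∧ p.2.natDegree = e ∧ p.1 ≠ p.2 ∧ B2 k p.1 p.2},
      Real.sqrt ((Nat.card K : ℝ) ^ ed σ (p.1 * p.2)) / (((Nat.card K : ℝ) ^ d - 1) * ((Nat.card K : ℝ) ^ e - 1))) ≤
      52 * k ^ 3 * d * (Nat.card K : ℝ) ^ (-(d : ℝ) / 2) := by
  have hq := two_le_card K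
  have hd : 1 ≤ d := he.trans hed
  have hd0 : 0 < d := hd
  have hd1 : (1 : ℝ) ≤ d := by exact_mod_cast hd
  have he1 : (1 : ℝ) ≤ e := by exact_mod_cast he
  have hed1 : (e : ℝ) ≤ d := by exact_mod_cast hed
  have hq0 : (0 : ℝ) < (Nat.card K : ℝ) := by linarith
  have hq1 : (1 : ℝ) ≤ (Nat.card K : ℝ) := by linarith
  obtain ⟨p, f0, hp', hch, -, -⟩ := exists_prime K
  have hp : Fact p.Prime := ⟨hp'⟩
  obtain ⟨s, hs⟩ := sigma_pow (p := p) σ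
  set S := {p : K[X] × K[X] | Irr' p.1 ∧ Irr' p.2 ∧ p.1.natDegree = d ∧ p.2.natDegree = e ∧ p.1 ≠ p.2 ∧ B2 k p.1 p.2}
    with hS
  -- all pairs
  have hE := ncard_self (L := Kb) (one_lt_pow (K := K) he)
  have hEr : ({x : Kb | x ^ Nat.card K ^ e = x}.ncard : ℝ) ≤ (Nat.card K : ℝ) ^ (e : ℝ) := by
    rw [Real.rpow_natCast]; exact_mod_cast hE.2
  have hall : ∀ S' ⊆ S, S'.Finite ∧ (S'.ncard : ℝ) ≤ (k : ℝ) ^ 2 * {x : Kb | x ^ Nat.card K ^ e = x}.ncard := by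
    intro S' hS'
    refine triples (S := S') (k := k) hE.1 (fun m c => c ^ m) (fun x _ c a => aeval a x.1 = 0 ∧ aeval c x.2 = 0) ?_ ?_
    · intro x hx
      obtain ⟨h1, h2, h3, h4, h5, m, hm1, hmk, a, b, ha, hb, hab⟩ := hS' hx
      refine ⟨m, b, a, hm1, hmk, ?_, hab, ha, hb⟩
      rw [Set.mem_ofPred_eq, ← h4]
      exact root_pow h2 hb
    · rintro x hx y hy m c a ⟨h1, h2⟩ ⟨h3, h4⟩
      have hx' := hS' hx
      have hy' := hS' hy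
      apply Prod.ext
      · rw [← minpoly_eq hx'.1 h1, ← minpoly_eq hy'.1 h3]
      · rw [← minpoly_eq hx'.2.1 h2, ← minpoly_eq hy'.2.1 h4]
  have hfin : S.Finite := (hall S subset_rfl).1
  have hdeg : ∀ x ∈ S, ed σ (x.1 * x.2) ≤ d + e := by
    intro x hx
    refine (ed_le (mul_ne_zero hx.1.1.ne_zero hx.2.1.1.ne_zero)).trans ?_
    rw [natDegree_mul hx.1.1.ne_zero hx.2.1.1.ne_zero, hx.2.2.1, hx.2.2.2.1]
  -- B : the second polynomial is self-dual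
  have hB : ∑ᶠ x ∈ S ∩ {x | x.2 ∣ str σ x.2}, Real.sqrt ((Nat.card K : ℝ) ^ ed σ (x.1 * x.2)) /
      (((Nat.card K : ℝ) ^ d - 1) * ((Nat.card K : ℝ) ^ e - 1)) ≤
      ((k : ℝ) ^ 2 * (4 * (Nat.card K : ℝ) ^ ((e : ℝ) / 2))) *
        (4 * (Nat.card K : ℝ) ^ (((d + e : ℕ) : ℝ) / 2 - d - e)) := by
    have hc := sd_count hσ e
    rw [sqrt_rpow hq] at hc
    have htr := triples (S := S ∩ {x | x.2 ∣ str σ x.2}) (k := k) hc.1 (fun m c => c ^ m)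
      (fun x _ c a => aeval a x.1 = 0 ∧ aeval c x.2 = 0) (by
        rintro x ⟨⟨h1, h2, h3, h4, h5, m, hm1, hmk, a, b, ha, hb, hab⟩, hsd⟩
        exact ⟨m, b, a, hm1, hmk, ⟨x.2, h2, h4, hsd, hb⟩, hab, ha, hb⟩) (by
        rintro x ⟨hx, -⟩ y ⟨hy, -⟩ m c a ⟨h1, h2⟩ ⟨h3, h4⟩
        apply Prod.ext
        · rw [← minpoly_eq hx.1 h1, ← minpoly_eq hy.1 h3]
        · rw [← minpoly_eq hx.2.1 h2, ← minpoly_eq hy.2.1 h4])
    refine finsum_le htr.1 (by positivity) (htr.2.trans (mul_le_mul_of_nonneg_left hc.2 (by positivity))) ?_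
    rintro x ⟨hx, -⟩
    exact term2_le hq hd he (hdeg x hx)
  -- D1 : the first polynomial is dual to the second
  have hD1 : ∑ᶠ x ∈ (S \ {x | x.2 ∣ str σ x.2}) ∩ {x | x.1 ∣ str σ x.2}, Real.sqrt ((Nat.card K : ℝ) ^ ed σ (x.1 * x.2)) /
      (((Nat.card K : ℝ) ^ d - 1) * ((Nat.card K : ℝ) ^ e - 1)) ≤
      ((k : ℝ) ^ 2 * (e * (4 * (Nat.card K : ℝ) ^ ((e : ℝ) / 2)))) *
        (4 * (Nat.card K : ℝ) ^ (((d + e : ℕ) : ℝ) / 2 - d - e)) := by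
    have hc := count_dual (K := K) (p := p) he s e
    rw [sqrt_rpow hq] at hc
    have htr := triples (S := (S \ {x | x.2 ∣ str σ x.2}) ∩ {x | x.1 ∣ str σ x.2}) (k := k) hc.1 (fun _ c => c)
      (fun x _ _ a => aeval a x.1 = 0) (by
        rintro x ⟨⟨⟨h1, h2, h3, h4, h5, m, hm1, hmk, a, b, ha, hb, hab⟩, -⟩, hdu⟩
        refine ⟨m, b ^ m, a, hm1, hmk, ?_, hab, ha⟩
        obtain ⟨i, hi, h6⟩ := dual_root hs h1 h2 hdu ha hb hab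
        refine ⟨i, by rw [← h4]; exact hi, ?_, h6⟩
        rw [← pow_mul, mul_comm, pow_mul, ← h4, root_pow h2 hb]) (by
        rintro x ⟨⟨hx, -⟩, hxd⟩ y ⟨⟨hy, -⟩, hyd⟩ m c a h1 h3
        apply Prod.ext
        · rw [← minpoly_eq hx.1 h1, ← minpoly_eq hy.1 h3]
        · exact dual_unique hs hx.2.1 hy.2.1 (root_ne_zero hx.1 h1) (aeval_of_dvd hxd h1) (aeval_of_dvd hyd h3))
    refine finsum_le htr.1 (by positivity) (htr.2.trans (mul_le_mul_of_nonneg_left hc.2 (by positivity))) ?_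
    rintro x ⟨⟨hx, -⟩, -⟩
    exact term2_le hq hd he (hdeg x hx)
  -- D2 : the second polynomial is dual to the first
  have hD2 : ∑ᶠ x ∈ ((S \ {x | x.2 ∣ str σ x.2}) \ {x | x.1 ∣ str σ x.2}) ∩ {x | x.2 ∣ str σ x.1},
      Real.sqrt ((Nat.card K : ℝ) ^ ed σ (x.1 * x.2)) /
      (((Nat.card K : ℝ) ^ d - 1) * ((Nat.card K : ℝ) ^ e - 1)) ≤
      ((k : ℝ) ^ 2 * (d * (4 * (Nat.card K : ℝ) ^ ((e : ℝ) / 2)))) *
        (4 * (Nat.card K : ℝ) ^ (((d + e : ℕ) : ℝ) / 2 - d - e)) := by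
    have hc := count_dual (K := K) (p := p) he s d
    rw [sqrt_rpow hq] at hc
    have htr := triples (S := ((S \ {x | x.2 ∣ str σ x.2}) \ {x | x.1 ∣ str σ x.2}) ∩ {x | x.2 ∣ str σ x.1})
      (k := k) hc.1 (fun _ c => c)
      (fun x _ _ a => aeval a x.2 = 0) (by
        rintro x ⟨⟨⟨⟨h1, h2, h3, h4, h5, m, hm1, hmk, a, b, ha, hb, hab⟩, -⟩, -⟩, hdu⟩
        refine ⟨m, a ^ m, b, hm1, hmk, ?_, hab.symm, hb⟩
        obtain ⟨i, hi, h6⟩ := dual_root hs h2 h1 hdu hb ha hab.symm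
        refine ⟨i, by rw [← h3]; exact hi, ?_, h6⟩
        rw [hab, ← pow_mul, mul_comm, pow_mul, ← h4, root_pow h2 hb]) (by
        rintro x ⟨⟨⟨hx, -⟩, -⟩, hxd⟩ y ⟨⟨⟨hy, -⟩, -⟩, hyd⟩ m c a h1 h3
        apply Prod.ext
        · exact dual_unique hs hx.1 hy.1 (root_ne_zero hx.2.1 h1) (aeval_of_dvd hxd h1) (aeval_of_dvd hyd h3)
        · rw [← minpoly_eq hx.2.1 h1, ← minpoly_eq hy.2.1 h3])
    refine finsum_le htr.1 (by positivity) (htr.2.trans (mul_le_mul_of_nonneg_left hc.2 (by positivity))) ?_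
    rintro x ⟨⟨⟨hx, -⟩, -⟩, -⟩
    exact term2_le hq hd he (hdeg x hx)
  -- the rest
  have hR : ∑ᶠ x ∈ ((S \ {x | x.2 ∣ str σ x.2}) \ {x | x.1 ∣ str σ x.2}) \ {x | x.2 ∣ str σ x.1},
      Real.sqrt ((Nat.card K : ℝ) ^ ed σ (x.1 * x.2)) /
      (((Nat.card K : ℝ) ^ d - 1) * ((Nat.card K : ℝ) ^ e - 1)) ≤
      ((k : ℝ) ^ 2 * (Nat.card K : ℝ) ^ (e : ℝ)) * (4 * (Nat.card K : ℝ) ^ ((d : ℝ) / 2 - d - e)) := by
    have htr := hall (((S \ {x | x.2 ∣ str σ x.2}) \ {x | x.1 ∣ str σ x.2}) \ {x | x.2 ∣ str σ x.1})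
      (fun x hx => hx.1.1.1)
    refine finsum_le htr.1 (by positivity) (htr.2.trans (mul_le_mul_of_nonneg_left hEr (by positivity))) ?_
    rintro x ⟨⟨⟨hx, h1⟩, h2⟩, h3⟩
    refine term2_le hq hd he ?_
    rw [← hx.2.2.1]
    exact ed_mul_le hx.1 hx.2.1 h1 h3
  refine (finsum_split hfin _ hB (finsum_split (hfin.subset Set.diff_subset) _ hD1
    (finsum_split (hfin.subset fun x hx => hx.1.1) _ hD2 hR))).trans ?_
  set q : ℝ := (Nat.card K : ℝ) with hqdef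
  have e1 : q ^ ((e : ℝ) / 2) * q ^ (((d + e : ℕ) : ℝ) / 2 - d - e) = q ^ (-(d : ℝ) / 2) := by
    rw [← Real.rpow_add hq0]; congr 1; push_cast; ring
  have e2 : q ^ (e : ℝ) * q ^ ((d : ℝ) / 2 - d - e) = q ^ (-(d : ℝ) / 2) := by
    rw [← Real.rpow_add hq0]; congr 1; ring
  have hk := sq_le_cube k
  have hz : 0 ≤ q ^ (-(d : ℝ) / 2) := by positivity
  calc _ = (k : ℝ) ^ 2 * (16 + 16 * e + 16 * d) * (q ^ ((e : ℝ) / 2) * q ^ (((d + e : ℕ) : ℝ) / 2 - d - e)) +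
        (k : ℝ) ^ 2 * 4 * (q ^ (e : ℝ) * q ^ ((d : ℝ) / 2 - d - e)) := by ring
    _ = (k : ℝ) ^ 2 * ((20 + 16 * e + 16 * d) * q ^ (-(d : ℝ) / 2)) := by rw [e1, e2]; ring
    _ ≤ (k : ℝ) ^ 2 * ((52 * d) * q ^ (-(d : ℝ) / 2)) := by
      apply mul_le_mul_of_nonneg_left _ (by positivity)
      apply mul_le_mul_of_nonneg_right _ hz
      linarith
    _ ≤ (k : ℝ) ^ 3 * ((52 * d) * q ^ (-(d : ℝ) / 2)) := mul_le_mul_of_nonneg_right hk (by positivity)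
    _ = _ := by ring

end sums

theorem sum_b1 : ∃ A : ℝ, 0 < A ∧ ∀ (K : Type) [Field K] [Finite K] (σ : K →+* K), (∀ x, σ (σ x) = x) → ∀ k d : ℕ, 1 ≤ d →
    (∑ᶠ f ∈ {f : K[X] | Irr' f ∧ f.natDegree = d ∧ B1 k f}, Real.sqrt ((Nat.card K : ℝ) ^ ed σ f) / ((Nat.card K : ℝ) ^ d - 1)) ≤
      A * k ^ 3 * d * (Nat.card K : ℝ) ^ (-(d : ℝ) / 6) :=
  ⟨8, by norm_num, fun _ _ _ _ hσ k _ hd => sum_b1' hσ k hd⟩

theorem sum_b2 : ∃ A : ℝ, 0 < A ∧ ∀ (K : Type) [Field K] [Finite K] (σ : K →+* K), (∀ x, σ (σ x) = x) → ∀ k d e : ℕ,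
    1 ≤ e → e ≤ d →
    (∑ᶠ p ∈ {p : K[X] × K[X] | Irr' p.1 ∧ Irr' p.2 ∧ p.1.natDegree = d ∧ p.2.natDegree = e ∧ p.1 ≠ p.2 ∧ B2 k p.1 p.2},
      Real.sqrt ((Nat.card K : ℝ) ^ ed σ (p.1 * p.2)) / (((Nat.card K : ℝ) ^ d - 1) * ((Nat.card K : ℝ) ^ e - 1))) ≤
      A * k ^ 3 * d * (Nat.card K : ℝ) ^ (-(d : ℝ) / 2) :=
  ⟨52, by norm_num, fun _ _ _ _ hσ k _ _ he hed => sum_b2' hσ k he hed⟩

theorem sum_rep : ∃ A : ℝ, 0 < A ∧ ∀ (K : Type) [Field K] [Finite K] (σ : K →+* K), (∀ x, σ (σ x) = x) → ∀ d : ℕ, 1 ≤ d →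
    (∑ᶠ f ∈ {f : K[X] | Irr' f ∧ f.natDegree = d}, (Real.sqrt ((Nat.card K : ℝ) ^ ed σ f) / ((Nat.card K : ℝ) ^ (2 * d) - 1) +
      Real.sqrt ((Nat.card K : ℝ) ^ ed σ (f ^ 2)) / ((Nat.card K : ℝ) ^ d * ((Nat.card K : ℝ) ^ d - 1)))) ≤
      A * (Nat.card K : ℝ) ^ (-(d : ℝ) / 2) :=
  ⟨20, by norm_num, fun _ _ _ _ hσ _ hd => sum_rep' hσ hd⟩

theorem sum_cyc : ∃ A : ℝ, 0 < A ∧ ∀ (K : Type) [Field K] [Finite K] (σ : K →+* K), (∀ x, σ (σ x) = x) → ∀ d : ℕ, 1 ≤ d →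
    (∑ᶠ f ∈ {f : K[X] | Irr' f ∧ f.natDegree = d}, (d : ℝ) * ∑' j : ℕ, Real.sqrt ((Nat.card K : ℝ) ^ ed σ (f ^ (j + 1))) /
      ((Nat.card K : ℝ) ^ (d * j) * ((Nat.card K : ℝ) ^ d - 1))) ≤ A :=
  ⟨36, by norm_num, fun _ _ _ _ hσ _ hd => sum_cyc' hσ hd⟩

end Cfsg.Agent.H244.Rg
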